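import Cfsg.Agent.H555.RC.QFix

/-!
# S3510, symplectic groups in characteristic two: the subgroup `Ω(Q)` (helper555)

* `QS Q` : the elements of `G` preserving `Q` semilinearly;
* `dead_quad` : no cover by elements preserving a quadratic form `Q` with polar form `B`, `dim ≥ 6`, unless `Q` is `Ω₆⁺(2)`;
* `card_zeros` : a quadratic form on `F₂⁶` with a totally singular subspace of dimension three has `36` zeros;
* `dead_even_of` : the whole row `dim ≥ 6` from the case `F₂⁶`.
-/

set_option autoImplicit false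
set_option linter.unusedSectionVars false

open Cfsg

namespace Cfsg.Agent.H555.RC

open Module QuadraticMap MulAction Cfsg.Agent.H385.RC Cfsg.Agent.H106.RC
open Cfsg.Agent.LieClassical.OrthCore Cfsg.Agent.LieClassical.OrthTrans Cfsg.Agent.LieClassical.OrthSimple
open Cfsg.Agent.LieClassical.OrthFinite Cfsg.Agent.ClassicalGeometry.OrthSemi Cfsg.Agent.ClassicalGeometry.OrthAut1
open Cfsg.Agent.H93.RC Cfsg.Agent.H236.RC

section qs

variable {F V G : Type*} [Field F] [AddCommGroup V] [Module F V] [Group G] [DistribMulAction G V]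

/-- the elements preserving `Q` semilinearly -/
def QS (G : Type*) [Group G] [DistribMulAction G V] (Q : QuadraticForm F V) : Subgroup G where
  carrier := {g | ∃ σ : F ≃+* F, (∀ (a : F) (v : V), g • a • v = σ a • g • v) ∧ ∀ v : V, Q (g • v) = σ (Q v)}
  mul_mem' := by
    rintro a b ⟨σ, h1, h2⟩ ⟨τ, h3, h4⟩
    refine ⟨τ.trans σ, fun c v => ?_, fun v => ?_⟩
    · rw [mul_smul, mul_smul, h3, h1]; rfl
    · rw [mul_smul, h2, h4]; rfl
  one_mem' := ⟨RingEquiv.refl F, fun c v => by rw [one_smul, one_smul]; rfl, fun v => by rw [one_smul]; rfl⟩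
  inv_mem' := by
    rintro a ⟨σ, h1, h2⟩
    refine ⟨σ.symm, fun c v => ?_, fun v => ?_⟩
    · rw [inv_smul_eq_iff, h1, smul_inv_smul, RingEquiv.apply_symm_apply]
    · rw [RingEquiv.eq_symm_apply, ← h2, smul_inv_smul]

theorem mem_QS {Q : QuadraticForm F V} {g : G} : g ∈ QS G Q ↔
    ∃ σ : F ≃+* F, (∀ (a : F) (v : V), g • a • v = σ a • g • v) ∧ ∀ v : V, Q (g • v) = σ (Q v) := Iff.rfl

/-- the semisimilitude of an element of `QS` -/
def toGam {Q : QuadraticForm F V} {g : G} (hg : g ∈ QS G Q) : Gam Q :=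
  ⟨MulAction.toPerm g, by
    obtain ⟨σ, h1, h2⟩ := hg
    exact ⟨σ, 1, one_ne_zero, fun u v => smul_add g u v, h1, fun v => by
      rw [one_mul]; exact h2 v⟩⟩

theorem toGam_apply {Q : QuadraticForm F V} {g : G} (hg : g ∈ QS G Q) (v : V) : (toGam hg).1 v = g • v := rfl

theorem toGam_inv_apply {Q : QuadraticForm F V} {g : G} (hg : g ∈ QS G Q) (v : V) : (toGam hg).1⁻¹ v = g⁻¹ • v := rfl

end qs

section mrule

variable {F V G : Type} [Field F] [Finite F] [AddCommGroup V] [Module F V] [FiniteDimensional F V] [Group G] [Finite G]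
  [DistribMulAction G V] {B : LinearMap.BilinForm F V} {N : Subgroup G}

/-- `E Q` consists of isometries of the polar form -/
theorem E_le_Sp {Q : QuadraticForm F V} (hQ : ∀ u v, polar Q u v = B u v) : E Q ≤ Cfsg.Agent.H520.RC.Sp B := by
  intro t ht u v
  rw [← hQ, ← hQ]
  exact polar_map (E_le_O ht) u v

/-- `E Q` inside `G` -/
noncomputable def rhoE (h : Ev B N) {Q : QuadraticForm F V} (hQ : ∀ u v, polar Q u v = B u v) : ↥(E Q) →* G :=
  h.rho.comp (Subgroup.inclusion (E_le_Sp hQ))

theorem rhoE_apply (h : Ev B N) {Q : QuadraticForm F V} (hQ : ∀ u v, polar Q u v = B u v) (t : ↥(E Q)) (v : V) :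
    rhoE h hQ t • v = t.1 v := h.rho_apply _ v

theorem rhoE_injective (h : Ev B N) {Q : QuadraticForm F V} (hQ : ∀ u v, polar Q u v = B u v) :
    Function.Injective (rhoE h hQ) :=
  h.rho_injective.comp (Subgroup.inclusion_injective _)

theorem rhoE_lift (h : Ev B N) {Q : QuadraticForm F V} (hQ : ∀ u v, polar Q u v = B u v) {x : G} (hx : x ∈ QS G Q) :
    Lf (rhoE h hQ) x (toGam hx) := by
  intro t
  apply h.ext
  intro v
  rw [mul_smul, mul_smul, rhoE_apply, rhoE_apply, coe_conjE, conjLin_apply, toGam_apply, toGam_inv_apply]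

theorem nondeg_of (h : Ev B N) {Q : QuadraticForm F V} (hQ : ∀ u v, polar Q u v = B u v) : Nondeg Q := by
  intro u hu
  exact h.nd u fun v => by rw [← hQ]; exact hu v

/-- **M-rule with `Ω(Q)`.** -/
theorem dead_quad (h : Ev B N) {Ω : Type} [MulAction G Ω] [Nonempty Ω] (hE : Env G Ω N) {S : Type} [Group S] [Finite S]
    (hIH : IH (Nat.card S)) (eS : N ≃* S) {ι : Type} [Finite ι] {x : ι → G} {r : ι → ℕ} (hx : PF x r) (hcov : Cov Ω x)
    (hdim : 6 ≤ finrank F V) {Q : QuadraticForm F V} (hQ : ∀ u v, polar Q u v = B u v) (hO : ∀ i, x i ∈ QS G Q)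
    (hnot : ¬ (Nat.card F = 2 ∧ finrank F V = 6 ∧ ∃ U : Submodule F V, (∀ v ∈ U, Q v = 0) ∧ finrank F U = 3)) :
    False := by
  have hnd := nondeg_of h hQ
  have hG : Good Q := good_of_finite hnd (by omega)
  have hchar := charP_two h
  obtain ⟨b1, b2, b3, b4⟩ := box_id hG
  have b5 : ¬ Exc (P Q) := b4.resolve_left hnot
  set ρ := rhoE h hQ with hρ
  have hinj : Function.Injective ρ := rhoE_injective h hQ
  let M : Subgroup G := ρ.range
  have hMN : M ≤ N := by
    rintro _ ⟨t, rfl⟩
    exact h.rho_mem _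
  have hMQ : ∀ m ∈ M, ∀ v : V, Q (m • v) = Q v := by
    rintro _ ⟨t, rfl⟩ v
    rw [rhoE_apply]
    exact E_le_O t.2 v
  -- `M` is proper
  have hne : M ≠ N := by
    intro heq
    obtain ⟨u, hu0, hu⟩ := hG.sing
    obtain ⟨w, hw⟩ := hnd.exists_polar_ne hu0
    have h1 : h.tr u 1 ∈ M := by rw [heq]; exact h.tr_mem u 1
    have h2 := hMQ _ h1 w
    rw [h.tr_apply, Q_add, QuadraticMap.map_smul, hu, smul_zero, add_zero, polar_smul_right, hQ, smul_eq_mul, one_mul,
      add_eq_left] at h2
    have h3 : B w u = 0 := by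
      rcases mul_eq_zero.1 h2 with h4 | h4 <;> exact h4
    exact hw (by rw [hQ, h.symm, h3])
  have hperf : ⁅M, M⁆ = M := by
    have h1 := commutator_E hG
    rw [commutator_def] at h1
    have h2 := congrArg (Subgroup.map ρ) h1
    rw [Subgroup.map_commutator, ← MonoidHom.range_eq_map] at h2
    exact h2
  let e : ↥(E Q) ≃* M := MonoidHom.ofInjective hinj
  let π : M →* P Q := (QuotientGroup.mk' (Subgroup.center ↥(E Q))).comp e.symm.toMonoidHom
  have hπ : Function.Surjective π := (QuotientGroup.mk'_surjective _).comp e.symm.surjective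
  have hker : π.ker ≤ Subgroup.center M := by
    intro m hm
    have h1 : e.symm m ∈ Subgroup.center ↥(E Q) := by
      have h2 : (QuotientGroup.mk' (Subgroup.center ↥(E Q))) (e.symm m) = 1 := hm
      rwa [QuotientGroup.mk'_apply, QuotientGroup.eq_one_iff] at h2
    rw [Subgroup.mem_center_iff] at h1 ⊢
    intro m'
    have h2 := h1 (e.symm m')
    rw [← map_mul, ← map_mul] at h2
    exact e.symm.injective h2
  have hnorm : ∀ i, x i ∈ Subgroup.normalizer (M : Set G) := by
    intro i
    have hl : ∀ y : G, y ∈ QS G Q → ∀ m ∈ M, y * m * y⁻¹ ∈ M := by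
      rintro y hy _ ⟨t, rfl⟩
      exact ⟨_, (rhoE_lift h hQ hy t).symm⟩
    rw [Subgroup.mem_normalizer_iff]
    intro m
    constructor
    · exact hl _ (hO i) m
    · intro hm
      have h1 := hl _ ((QS G Q).inv_mem (hO i)) _ hm
      have h2 : (x i)⁻¹ * (x i * m * (x i)⁻¹) * ((x i)⁻¹)⁻¹ = m := by group
      rwa [h2] at h1
  have hJ : ∀ j, ¬ ∀ m ∈ M, x j * m = m * x j := by
    intro j hj
    have h1 : conjE Q (toGam (hO j)) = 1 := by
      ext1 t
      apply hinj
      have h2 := rhoE_lift h hQ (hO j) t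
      rw [← hρ] at h2
      rw [← h2, hj _ ⟨t, rfl⟩, mul_inv_cancel_right]
      rfl
    obtain ⟨a, ha0, ha⟩ := exists_scalar_of_conjE hG _ h1
    have ha' : ∀ v : V, x j • v = a • v := ha
    apply hx.ne j
    apply h.ext
    intro v
    have hjN : x j ∈ N := (h.mem _).2 fun c w => by
      rw [ha', ha', smul_comm]
    obtain ⟨u, hu0, hu⟩ := hG.sing
    obtain ⟨w, hw⟩ := hnd.exists_polar_ne hu0
    have h2 := h.isom hjN u w
    rw [ha', ha', map_smul, map_smul, LinearMap.smul_apply, smul_eq_mul, smul_eq_mul, ← mul_assoc] at h2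
    rw [hQ] at hw
    have h3 : a * a = 1 := by
      have := mul_right_cancel₀ hw (h2.trans (one_mul _).symm)
      exact this
    have h4 : a = 1 := by
      have h5 : (a + 1) * (a + 1) = 0 := by
        linear_combination h3 + (a + 1) * h.two
      rcases mul_eq_zero.1 h5 with h6 | h6 <;>
      · have h7 : a = -1 := by linear_combination h6
        rw [h7, h.neg]
    rw [ha', h4, one_smul, one_smul]
  have hM : M ≠ ⊥ := by
    obtain ⟨t, ht, ht1⟩ := good_E_ne_bot hG
    intro hbot
    have h1 : ρ ⟨t, ht⟩ ∈ M := ⟨_, rfl⟩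
    rw [hbot, Subgroup.mem_bot] at h1
    have h2 : (⟨t, ht⟩ : ↥(E Q)) = 1 := hinj (by rw [h1, map_one])
    exact ht1 (congrArg Subtype.val h2)
  have hfV : Finite V := Module.finite_of_finite F
  have hfL : Finite (V ≃ₗ[F] V) := DFunLike.finite _
  have hfE : Finite ↥(E Q) := inferInstance
  have hfP : Finite (P Q) := inferInstance
  exact no_cent hE (mrule_IH hIH eS hMN hne hperf π hπ hker b1 b2 b3 b5 hx hcov hnorm) hJ hM

end mrule

end Cfsg.Agent.H555.RC
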